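import Cfsg.Agent.H33.Orth
import Cfsg.Agent.H33.Kernel
import Cfsg.Agent.H34.ClassSum

/-! Principal blocks for two primes. -/

set_option autoImplicit false

namespace Cfsg.Agent.BPQ

open Subgroup H32 H33 H34

variable {G : Type*} [Group G] [Finite G]

/-- If `B₀(p)`, `B₀(q)` share only the trivial character, `p`-elements have `q'` class size. -/
theorem key {p q : ℕ} {Mp Mq : Ideal AlgInt} (hMp : IsPModular p Mp) (hMq : IsPModular q Mq)
    (h : ∀ χ : IrrCharacter G, χ ∈ principalBlock Mp G → χ ∈ principalBlock Mq G →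
      (χ : G → ℂ) = fun _ => 1) {u : G} (hu : ∃ k, orderOf u = p ^ k) :
    ¬ q ∣ (centralizer ({u} : Set G)).index := by
  classical
  have := hMp.2.1
  have := hMq.2.1
  have := Fintype.ofFinite G
  have : Fact q.Prime := ⟨hMq.1⟩
  intro hq
  let θ : G → ℂ := fun g =>
    ∑ χ ∈ Finset.univ.filter (· ∈ principalBlock Mp G), (χ : G → ℂ) g * (χ : G → ℂ) u⁻¹
  have hθc : IsClassFunction G θ := by
    intro a b
    refine Finset.sum_congr rfl fun χ _ => ?_
    rw [H5.isClassFunction_of_isIrr χ.2 a b]
  have hθi : ∀ g, θ g ∈ locRing Mq := fun g =>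
    sum_mem fun χ _ => mul_mem (H33.irr_mem_locRing χ _) (H33.irr_mem_locRing χ _)
  have h1 : ∑ g, blockCoeff (principalBlock Mq G) g * θ g = 1 := by
    simp only [θ, Finset.mul_sum]
    rw [Finset.sum_comm]
    have e : ∀ χ : IrrCharacter G, ∑ g, blockCoeff (principalBlock Mq G) g *
        ((χ : G → ℂ) g * (χ : G → ℂ) u⁻¹) =
        (if χ ∈ principalBlock Mq G then (χ : G → ℂ) 1 else 0) * (χ : G → ℂ) u⁻¹ := by
      intro χ
      rw [← sum_blockCoeff_mul_irr, Finset.sum_mul]
      exact Finset.sum_congr rfl fun g _ => by rw [mul_one, mul_assoc]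
    simp only [e]
    rw [Finset.sum_eq_single (oneIrr G)]
    · rw [if_pos oneIrr_mem_principalBlock, oneIrr_apply, oneIrr_apply, mul_one]
    · intro χ hχ hne
      rw [if_neg, zero_mul]
      intro hχq
      refine hne (Subtype.ext ?_)
      rw [h χ (Finset.mem_filter.1 hχ).2 hχq]
      funext g
      exact (oneIrr_apply g).symm
    · intro hn
      exact absurd (Finset.mem_filter.2 ⟨Finset.mem_univ _, oneIrr_mem_principalBlock⟩) hn
  refine one_not_mem_locMax (M := Mq) ?_
  rw [← h1]
  refine sum_mul_mem_of_clSum (locMax Mq) (H33.blockCoeff_conj _) θ fun g => ?_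
  refine mul_mem_locMax_left (S0913.result q Mq hMq _ H33.isPBlock_principalBlock g) ?_
  rw [clSum_of_isClassFunction hθc]
  obtain ⟨z, hz⟩ := exists_isPPart hMp.1 g
  by_cases hc : IsConj z u
  · refine mul_mem_locMax_right ((natCast_mem_locMax_iff hMq).2 ?_) (hθi g)
    obtain ⟨c, rfl⟩ := isConj_iff.1 hc
    have e1 : (centralizer ({c * z * c⁻¹} : Set G)).index = (centralizer ({z} : Set G)).index := by
      have : centralizer ({c * z * c⁻¹} : Set G) =
          (centralizer ({z} : Set G)).map (MulAut.conj c).toMonoidHom := by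
        ext x
        simp only [mem_centralizer_singleton_iff, mem_map, MulEquiv.coe_toMonoidHom,
          MulAut.conj_apply]
        constructor
        · intro hx
          refine ⟨c⁻¹ * x * c, ?_, by group⟩
          calc c⁻¹ * x * c * z = c⁻¹ * (x * (c * z * c⁻¹)) * c := by group
            _ = z * (c⁻¹ * x * c) := by rw [hx]; group
        · rintro ⟨y, hy, rfl⟩
          calc c * y * c⁻¹ * (c * z * c⁻¹) = c * (y * z) * c⁻¹ := by group
            _ = c * z * c⁻¹ * (c * y * c⁻¹) := by rw [hy]; group
      rw [this, index_map_of_bijective (MulAut.conj c).bijective]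
    rw [e1] at hq
    refine hq.trans (index_dvd_of_le fun x hx => ?_)
    rw [mem_centralizer_singleton_iff] at hx ⊢
    exact IsPPart.commute_of_commute hMp.1 hz hx
  · have := block_orthogonality hMp (H33.isPBlock_principalBlock (M := Mp) (G := G)) hz
      (isPPart_self hMp.1 hu) hc
    rw [finsum_mem_irr] at this
    have e : θ g = 0 := this
    rw [e, mul_zero]
    exact zero_mem _

end Cfsg.Agent.BPQ
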